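import Cfsg.Agent.H721.FR.Base
import Cfsg.Agent.Characters.Central

/-!
# S4970, the class lemma (helper619)

`Y = A E ⟨t⟩`, `A` normal and commutative, `E` of exponent 2, `t` commuting with `E` and inverting `A`, `t² = z`
central: `ν(χ) χ(z) / χ(1) = (T₁ χ + ω T₂ χ) / (2 |AE| |A|)` with
`T₁ χ = ∑_{b ∈ A, y ∈ AE} χ(y b⁻¹ y⁻¹ b)`, `T₂ χ = ∑_{b ∈ A, y ∈ AE} χ(y b y⁻¹ b)`; the real part is not negative.
-/

set_option autoImplicit false

universe u

namespace Cfsg.Agent.H619.FR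

open Cfsg Cfsg.Agent.H955.FS Cfsg.Agent.H721.FR Cfsg.Agent.Characters.Core Cfsg.Agent.Characters.Central
open scoped ComplexConjugate

section Pos

variable {G : Type u} [Group G]

theorem re_nonneg_aux (c : ℂ) {ω : ℝ} (hω : ω = 1 ∨ ω = -1) : 0 ≤ (conj c * c + (ω : ℂ) * (c * c)).re := by
  have h1 : (conj c * c + (ω : ℂ) * (c * c)).re = c.re * c.re + c.im * c.im + ω * (c.re * c.re - c.im * c.im) := by
    simp [Complex.add_re, Complex.mul_re]
  rw [h1]
  rcases hω with rfl | rfl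
  · nlinarith [mul_self_nonneg c.re]
  · nlinarith [mul_self_nonneg c.im]

/-- for irreducible characters -/
theorem pos_irr [Fintype G] {ι : Type*} [Fintype ι] (b : ι → G) {ψ : G → ℂ} (hψ : IsIrrCharacter G ψ)
    {ω : ℝ} (hω : ω = 1 ∨ ω = -1) :
    0 ≤ (∑ i, ∑ y : G, (ψ (y * (b i)⁻¹ * y⁻¹ * b i) + (ω : ℂ) * ψ (y * b i * y⁻¹ * b i))).re := by
  obtain ⟨d, hd, hd1⟩ := isIrr_apply_one hψ
  rw [Complex.re_sum]
  refine Finset.sum_nonneg fun i _ => ?_
  have h1 : ∑ y : G, (ψ (y * (b i)⁻¹ * y⁻¹ * b i) + (ω : ℂ) * ψ (y * b i * y⁻¹ * b i)) =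
      (((Nat.card G : ℝ) / d : ℝ) : ℂ) * (conj (ψ (b i)) * ψ (b i) + (ω : ℂ) * (ψ (b i) * ψ (b i))) := by
    rw [Finset.sum_add_distrib, ← Finset.mul_sum, sum_char_conj_mul hψ, sum_char_conj_mul hψ, hd1,
      isCharacter_apply_inv (isIrr_isCharacter hψ)]
    push_cast
    ring
  rw [h1, Complex.re_ofReal_mul]
  exact mul_nonneg (by positivity) (re_nonneg_aux _ hω)

/-- for all characters -/
theorem pos_char [Fintype G] {ι : Type*} [Fintype ι] (b : ι → G) {χ : G → ℂ} (hχ : IsCharacter G χ)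
    {ω : ℝ} (hω : ω = 1 ∨ ω = -1) :
    0 ≤ (∑ i, ∑ y : G, (χ (y * (b i)⁻¹ * y⁻¹ * b i) + (ω : ℂ) * χ (y * b i * y⁻¹ * b i))).re := by
  classical
  have := finite_irr (G := G)
  have := Fintype.ofFinite (IrrCharacter G)
  obtain ⟨m, rfl⟩ := exists_nat_comb hχ
  have h0 : ∀ g : G, (∑ ψ : IrrCharacter G, m ψ • (ψ : G → ℂ)) g = ∑ ψ : IrrCharacter G, ((m ψ : ℝ) : ℂ) * (ψ : G → ℂ) g := by
    intro g
    rw [Finset.sum_apply]
    refine Finset.sum_congr rfl fun ψ _ => ?_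
    rw [Pi.smul_apply, nsmul_eq_mul]
    push_cast
    rfl
  have h1 : ∑ i, ∑ y : G, ((∑ ψ : IrrCharacter G, m ψ • (ψ : G → ℂ)) (y * (b i)⁻¹ * y⁻¹ * b i) +
      (ω : ℂ) * (∑ ψ : IrrCharacter G, m ψ • (ψ : G → ℂ)) (y * b i * y⁻¹ * b i)) =
      ∑ ψ : IrrCharacter G, ((m ψ : ℝ) : ℂ) * ∑ i, ∑ y : G, ((ψ : G → ℂ) (y * (b i)⁻¹ * y⁻¹ * b i) +
        (ω : ℂ) * (ψ : G → ℂ) (y * b i * y⁻¹ * b i)) := by
    simp only [h0, Finset.mul_sum]
    rw [Finset.sum_comm (γ := IrrCharacter G) (s := Finset.univ (α := IrrCharacter G))]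
    refine Finset.sum_congr rfl fun i _ => ?_
    rw [Finset.sum_comm (γ := IrrCharacter G) (s := Finset.univ (α := IrrCharacter G))]
    refine Finset.sum_congr rfl fun y _ => ?_
    rw [← Finset.sum_add_distrib]
    refine Finset.sum_congr rfl fun ψ _ => ?_
    ring
  rw [h1, Complex.re_sum]
  refine Finset.sum_nonneg fun ψ _ => ?_
  rw [Complex.re_ofReal_mul]
  exact mul_nonneg (by positivity) (pos_irr b ψ.2 hω)

end Pos

/-- reindexing by left multiplication in a subgroup -/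
theorem sum_left {Y : Type u} [Group Y] (H : Subgroup Y) [Fintype H] (g : Y → ℂ) (a : H) :
    ∑ x : H, g ((x : Y) * a) = ∑ x : H, g x :=
  Fintype.sum_bijective (fun x : H => x * a) (Group.mulRight_bijective a) _ _ fun x => rfl

section Main

variable {Y : Type u} [Group Y] [Finite Y] {A E : Subgroup Y}

/-- **The class lemma, with `z`.** -/
theorem fsz_cls (hAn : A.Normal) (hA : ∀ a ∈ A, ∀ b ∈ A, a * b = b * a) (hE2 : ∀ e ∈ E, e * e = 1) {t z : Y}
    (hzA : z ∈ A) (hzc : ∀ y, y * z = z * y) (hz2 : z * z = 1) (htE : ∀ e ∈ E, t * e = e * t) (htt : t * t = z)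
    (htA : ∀ a ∈ A, t * a * t⁻¹ = a⁻¹) (htop : Subgroup.closure ((A : Set Y) ∪ E ∪ {t}) = ⊤) : FSZ z := by
  classical
  have := Fintype.ofFinite Y
  set Y₀ : Subgroup Y := A ⊔ E with hY₀
  have hA0 : A ≤ Y₀ := le_sup_left
  have hE0 : E ≤ Y₀ := le_sup_right
  -- decompositions
  have hdec0 : ∀ y ∈ Y₀, ∃ a ∈ A, ∃ e ∈ E, y = a * e := by
    intro y hy
    obtain ⟨a, ha, e, he, rfl⟩ := Subgroup.mem_sup_of_normal_left.1 hy
    exact ⟨a, ha, e, he, rfl⟩
  have htY0 : ∀ y ∈ Y₀, t * y * t⁻¹ ∈ Y₀ := by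
    intro y hy
    obtain ⟨a, ha, e, he, rfl⟩ := hdec0 y hy
    have h1 : t * (a * e) * t⁻¹ = (t * a * t⁻¹) * e := by
      calc t * (a * e) * t⁻¹ = (t * a * t⁻¹) * (t * e) * t⁻¹ := by group
        _ = (t * a * t⁻¹) * e := by rw [htE e he]; group
    rw [h1, htA a ha]
    exact mul_mem (inv_mem (hA0 ha)) (hE0 he)
  have hti : t⁻¹ = z * t := by
    rw [inv_eq_iff_mul_eq_one, ← mul_assoc, hzc, mul_assoc, htt, hz2]
  have hdec : ∀ y : Y, y ∈ Y₀ ∨ y * t⁻¹ ∈ Y₀ := by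
    have hclosure : ∀ y ∈ Subgroup.closure ((A : Set Y) ∪ E ∪ {t}), y ∈ Y₀ ∨ y * t⁻¹ ∈ Y₀ := by
      intro y hy
      induction hy using Subgroup.closure_induction with
      | mem x hx =>
        rcases hx with (hx | hx) | hx
        · exact Or.inl (hA0 hx)
        · exact Or.inl (hE0 hx)
        · right
          rw [Set.mem_singleton_iff.1 hx, mul_inv_cancel]
          exact one_mem _
      | one => exact Or.inl (one_mem _)
      | mul x y _ _ hx hy =>
        rcases hx with hx | hx <;> rcases hy with hy | hy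
        · exact Or.inl (mul_mem hx hy)
        · right
          rw [mul_assoc]
          exact mul_mem hx hy
        · right
          have h1 : x * y * t⁻¹ = (x * t⁻¹) * (t * y * t⁻¹) := by group
          rw [h1]
          exact mul_mem hx (htY0 y hy)
        · left
          have h1 : x * y = (x * t⁻¹) * (t * (y * t⁻¹) * t⁻¹) * (t * t) := by group
          rw [h1, htt]
          exact mul_mem (mul_mem hx (htY0 _ hy)) (hA0 hzA)
      | inv x _ hx =>
        rcases hx with hx | hx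
        · exact Or.inl (inv_mem hx)
        · right
          have h1 : x⁻¹ * t⁻¹ = (t * (x * t⁻¹) * t⁻¹ * (t * t))⁻¹ := by group
          rw [h1, htt]
          exact inv_mem (mul_mem (htY0 _ hx) (hA0 hzA))
    intro y
    exact hclosure y (by rw [htop]; exact Subgroup.mem_top y)
  intro χ hχ h0
  -- the sign `ω`
  obtain ⟨d, hd, hd1⟩ := isIrr_apply_one hχ
  have hz : ∃ ω : ℝ, (ω = 1 ∨ ω = -1) ∧ ∀ g, χ (g * z) = (ω : ℂ) * χ g := by
    have h2 : ∀ g, χ (g * z) = (χ z / χ 1) * χ g := by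
      intro g
      have h3 := sum_char_conj_mul hχ z g
      have h4 : ∑ a : Y, χ (a * z * a⁻¹ * g) = (Nat.card Y : ℂ) * χ (g * z) := by
        rw [Finset.sum_congr rfl (g := fun _ => χ (g * z)) (fun a _ => by
          rw [hzc a, mul_inv_cancel_right, hzc g]), Finset.sum_const, nsmul_eq_mul, Nat.card_eq_fintype_card,
          Finset.card_univ]
      rw [h4] at h3
      have hYc : (Nat.card Y : ℂ) ≠ 0 := by exact_mod_cast Nat.card_pos.ne'
      apply mul_left_cancel₀ hYc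
      rw [h3]
      ring
    have h5 : (χ z / χ 1) * (χ z / χ 1) = 1 := by
      have h6 := h2 z
      rw [hz2] at h6
      have h7 : χ 1 ≠ 0 := isIrr_apply_one_ne_zero hχ
      rw [mul_div_assoc', ← h6, div_self h7]
    rcases mul_self_eq_one_iff.1 h5 with h6 | h6
    · exact ⟨1, Or.inl rfl, fun g => by rw [h2, h6]; push_cast; rfl⟩
    · exact ⟨-1, Or.inr rfl, fun g => by rw [h2, h6]; push_cast; rfl⟩
  obtain ⟨ω, hω, hωz⟩ := hz
  have hωω : (ω : ℂ) * ω = 1 := by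
    rcases hω with rfl | rfl <;> norm_num
  have hd0 : (d : ℂ) ≠ 0 := by exact_mod_cast hd.ne'
  have hχz : χ z = ω * d := by
    rw [← hd1, ← hωz, one_mul]
  have h1 : fsi χ * ω = -1 := by
    rw [hχz, hd1] at h0
    apply mul_right_cancel₀ hd0
    rw [← mul_assoc] at h0
    rw [h0]
    ring
  -- the sums
  let F : Y → ℂ := fun y => χ (y * y)
  have hFz : ∀ y, F (y * z) = F y := by
    intro y
    show χ (y * z * (y * z)) = χ (y * y)
    have h2 : y * z * (y * z) = y * y * (z * z) := by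
      calc y * z * (y * z) = y * (z * y) * z := by group
        _ = y * (y * z) * z := by rw [← hzc y]
        _ = y * y * (z * z) := by group
    rw [h2, hz2, mul_one]
  let g : Y → ℂ := fun y => F y + F (y * t)
  have hgt : ∀ y, g (y * t) = g y := by
    intro y
    show F (y * t) + F (y * t * t) = F y + F (y * t)
    rw [mul_assoc y t t, htt, hFz, add_comm]
  have h2 : ∑ y : Y, g y = 2 * ∑ y : Y, F y := by
    show ∑ y : Y, (F y + F (y * t)) = _
    rw [Finset.sum_add_distrib, Fintype.sum_bijective (fun y : Y => y * t) (Group.mulRight_bijective t)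
      (fun y => F (y * t)) F (fun _ => rfl)]
    ring
  have h3 : (Nat.card Y₀ : ℂ) * ∑ y : Y, g y = (Nat.card Y : ℂ) * ∑ x : Y₀, g x := by
    have h4 : ∀ y : Y, ∑ x : Y₀, g ((x : Y) * y) = ∑ x : Y₀, g x := by
      intro y
      rcases hdec y with hy | hy
      · exact sum_left Y₀ g ⟨y, hy⟩
      · have h5 : ∀ x : Y₀, g ((x : Y) * y) = g ((x : Y) * (y * t⁻¹)) := by
          intro x
          rw [← hgt ((x : Y) * (y * t⁻¹))]
          congr 1
          group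
        rw [Finset.sum_congr rfl fun x _ => h5 x]
        exact sum_left Y₀ g ⟨y * t⁻¹, hy⟩
    have h5 : ∑ y : Y, ∑ x : Y₀, g ((x : Y) * y) = (Nat.card Y : ℂ) * ∑ x : Y₀, g x := by
      rw [Finset.sum_congr rfl fun y _ => h4 y, Finset.sum_const, nsmul_eq_mul, Nat.card_eq_fintype_card, Finset.card_univ]
    rw [← h5, Finset.sum_comm]
    have h6 : ∀ x : Y₀, ∑ y : Y, g ((x : Y) * y) = ∑ y : Y, g y := fun x =>
      Fintype.sum_bijective (fun y : Y => (x : Y) * y) (Group.mulLeft_bijective (x : Y)) _ _ fun _ => rfl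
    rw [Finset.sum_congr rfl fun x _ => h6 x, Finset.sum_const, nsmul_eq_mul, Nat.card_eq_fintype_card, Finset.card_univ]
  -- the restriction to `Y₀`
  let f : Y₀ → ℂ := fun x => χ x
  have hf : IsCharacter Y₀ f := isCharacter_comp Y₀.subtype (isIrr_isCharacter hχ)
  have hpos := pos_char (G := Y₀) (fun b : A => (⟨b, hA0 b.2⟩ : Y₀)) hf hω
  -- pointwise computation
  have h7 : ∀ y : Y₀, ∑ b : A, g ((b : Y) * y) =
      ∑ b : A, ((ω : ℂ) * χ (y * (b : Y)⁻¹ * (y : Y)⁻¹ * b) + χ (y * (b : Y) * (y : Y)⁻¹ * b)) := by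
    intro y
    obtain ⟨a, ha, e, he, hy⟩ := hdec0 y y.2
    have h8 : ∑ b : A, g ((b : Y) * y) = ∑ b : A, g ((b : Y) * e) := by
      rw [← sum_left A (fun x => g (x * e)) ⟨a, ha⟩]
      refine Finset.sum_congr rfl fun b _ => ?_
      rw [hy, mul_assoc]
    rw [h8]
    refine Finset.sum_congr rfl fun b _ => ?_
    have hb := b.2
    have he1 : e⁻¹ = e := by rw [inv_eq_iff_mul_eq_one, hE2 e he]
    -- `y c y⁻¹ = e c e⁻¹` for `c ∈ A`
    have hyc : ∀ c ∈ A, (y : Y) * c * (y : Y)⁻¹ = e * c * e⁻¹ := by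
      intro c hc
      have h9 := hAn.conj_mem c hc e
      have h10 := hA a ha _ h9
      rw [hy]
      calc a * e * c * (a * e)⁻¹ = (a * (e * c * e⁻¹)) * a⁻¹ := by group
        _ = e * c * e⁻¹ := by rw [h10]; group
    rw [hyc _ hb, hyc _ (inv_mem hb)]
    have h9 : F ((b : Y) * e) = χ (e * b * e⁻¹ * b) := by
      have h10 := hA b hb _ (hAn.conj_mem b hb e)
      show χ (b * e * (b * e)) = _
      rw [← h10]
      congr 1
      calc (b : Y) * e * (b * e) = b * (e * b * e⁻¹) * (e * e) := by group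
        _ = _ := by rw [hE2 e he, mul_one]
    have h11 : F ((b : Y) * e * t) = (ω : ℂ) * χ (e * (b : Y)⁻¹ * e⁻¹ * b) := by
      have h10 := hA b hb _ (hAn.conj_mem _ (inv_mem hb) e)
      rw [← h10, ← hωz]
      show χ (b * e * t * (b * e * t)) = _
      congr 1
      calc (b : Y) * e * t * (b * e * t) = b * e * (t * b * t⁻¹) * (t * e) * t := by group
        _ = b * e * (b : Y)⁻¹ * (e * t) * t := by rw [htA b hb, htE e he]
        _ = b * (e * (b : Y)⁻¹ * e⁻¹) * (e * e) * (t * t) := by group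
        _ = _ := by rw [hE2 e he, htt, mul_one]
    show F ((b : Y) * e) + F ((b : Y) * e * t) = _
    rw [h9, h11, add_comm]
  have h12 : (Nat.card A : ℂ) * ∑ x : Y₀, g x =
      ∑ x : Y₀, ∑ b : A, ((ω : ℂ) * χ (x * (b : Y)⁻¹ * (x : Y)⁻¹ * b) + χ (x * (b : Y) * (x : Y)⁻¹ * b)) := by
    rw [← Finset.sum_congr rfl fun x _ => h7 x, Finset.sum_comm]
    have h6 : ∀ b : A, ∑ x : Y₀, g ((b : Y) * x) = ∑ x : Y₀, g x := fun b =>
      Fintype.sum_bijective (fun x : Y₀ => (⟨b, hA0 b.2⟩ : Y₀) * x) (Group.mulLeft_bijective _) _ _ fun _ => rfl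
    rw [Finset.sum_congr rfl fun x _ => h6 x, Finset.sum_const, nsmul_eq_mul, Nat.card_eq_fintype_card, Finset.card_univ]
  have h13 : (ω : ℂ) * ((Nat.card A : ℂ) * ∑ x : Y₀, g x) =
      ∑ b : A, ∑ x : Y₀, (f (x * (⟨b, hA0 b.2⟩ : Y₀)⁻¹ * x⁻¹ * ⟨b, hA0 b.2⟩) +
        (ω : ℂ) * f (x * ⟨b, hA0 b.2⟩ * x⁻¹ * ⟨b, hA0 b.2⟩)) := by
    rw [h12, Finset.sum_comm, Finset.mul_sum]
    refine Finset.sum_congr rfl fun b _ => ?_
    rw [Finset.mul_sum]
    refine Finset.sum_congr rfl fun x _ => ?_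
    rw [mul_add, ← mul_assoc, hωω, one_mul]
    rfl
  rw [← h13] at hpos
  -- conclusion
  have hYc : (Nat.card Y : ℂ) ≠ 0 := by exact_mod_cast Nat.card_pos.ne'
  have h14 : ∑ y : Y, F y = (Nat.card Y : ℂ) * fsi χ := by
    rw [fsi_eq_sum, ← mul_assoc, mul_inv_cancel₀ hYc, one_mul]
  have h15 : ∑ x : Y₀, g x = 2 * (Nat.card Y₀ : ℂ) * fsi χ := by
    rw [h2, h14] at h3
    apply mul_left_cancel₀ hYc
    rw [← h3]
    ring
  rw [h15] at hpos
  have h16 : (ω : ℂ) * ((Nat.card A : ℂ) * (2 * (Nat.card Y₀ : ℂ) * fsi χ)) =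
      ((-(2 * Nat.card A * Nat.card Y₀ : ℕ) : ℝ) : ℂ) := by
    have h17 : (ω : ℂ) * ((Nat.card A : ℂ) * (2 * (Nat.card Y₀ : ℂ) * fsi χ)) =
        2 * (Nat.card A : ℂ) * (Nat.card Y₀ : ℂ) * (fsi χ * ω) := by ring
    rw [h17, h1]
    push_cast
    ring
  rw [h16, Complex.ofReal_re] at hpos
  have h18 : 0 < (2 * Nat.card A * Nat.card Y₀ : ℕ) := by
    have := Nat.card_pos (α := A)
    have := Nat.card_pos (α := Y₀)
    positivity
  have h19 : (0 : ℝ) < ((2 * Nat.card A * Nat.card Y₀ : ℕ) : ℝ) := by exact_mod_cast h18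
  linarith

/-- **The class lemma**: all indicators are one. -/
theorem fsGood_cls (hAn : A.Normal) (hA : ∀ a ∈ A, ∀ b ∈ A, a * b = b * a) (hE2 : ∀ e ∈ E, e * e = 1)
    (hAE : A ⊔ E = ⊤) {t : Y} (htE : t ∈ E) (htA : ∀ a ∈ A, t * a * t⁻¹ = a⁻¹) : FSGood False Y := by
  have hE : ∀ e ∈ E, ∀ f ∈ E, e * f = f * e := by
    intro e he f hf
    have h1 := hE2 (e * f) (mul_mem he hf)
    have he1 : e⁻¹ = e := by rw [inv_eq_iff_mul_eq_one, hE2 e he]
    have hf1 : f⁻¹ = f := by rw [inv_eq_iff_mul_eq_one, hE2 f hf]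
    have h2 : (e * f)⁻¹ = e * f := by rw [inv_eq_iff_mul_eq_one, h1]
    rw [← h2, mul_inv_rev, he1, hf1]
  have h1 : FSZ (1 : Y) := by
    refine fsz_cls (A := A) (E := E) (t := t) hAn hA hE2 (one_mem _) (fun y => by rw [mul_one, one_mul]) (mul_one _)
      (fun e he => hE t htE e he) (hE2 t htE) htA ?_
    rw [eq_top_iff, ← hAE, sup_le_iff]
    exact ⟨fun x hx => Subgroup.subset_closure (Or.inl (Or.inl hx)),
      fun x hx => Subgroup.subset_closure (Or.inl (Or.inr hx))⟩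
  refine (fsz_one_iff.1 h1).of_isConj_inv fun y => ?_
  have hy : y ∈ A ⊔ E := by rw [hAE]; exact Subgroup.mem_top y
  obtain ⟨a, ha, e, he, rfl⟩ := Subgroup.mem_sup_of_normal_left.1 hy
  have he1 : e⁻¹ = e := by rw [inv_eq_iff_mul_eq_one, hE2 e he]
  refine isConj_iff.2 ⟨e * t, ?_⟩
  calc e * t * (a * e) * (e * t)⁻¹ = e * ((t * a * t⁻¹) * (t * e) * t⁻¹) * e⁻¹ := by group
    _ = e * (a⁻¹ * (e * t) * t⁻¹) * e⁻¹ := by rw [htA a ha, hE t htE e he]
    _ = e * a⁻¹ := by group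
    _ = (a * e)⁻¹ := by rw [mul_inv_rev, he1]

/-- `A⟨t⟩`, `t` inverts the commutative group `A`, `t² = z` -/
theorem fsz_inv (hA : ∀ a ∈ A, ∀ b ∈ A, a * b = b * a) {t z : Y} (hzA : z ∈ A) (hz2 : z * z = 1) (htt : t * t = z)
    (htA : ∀ a ∈ A, t * a * t⁻¹ = a⁻¹) (htop : A ⊔ Subgroup.closure {t} = ⊤) : FSZ z := by
  have htop' : Subgroup.closure ((A : Set Y) ∪ {t}) = ⊤ := by
    rw [Subgroup.closure_union, Subgroup.closure_eq, htop]
  have hAt : ∀ y ∈ Subgroup.closure ((A : Set Y) ∪ {t}), ∀ a ∈ A, y * a * y⁻¹ ∈ A ∧ y⁻¹ * a * y ∈ A := by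
    intro y hy
    induction hy using Subgroup.closure_induction with
    | mem x hx =>
      intro a ha
      rcases hx with hx | hx
      · exact ⟨mul_mem (mul_mem hx ha) (inv_mem hx), mul_mem (mul_mem (inv_mem hx) ha) hx⟩
      · rw [Set.mem_singleton_iff.1 hx]
        refine ⟨?_, ?_⟩
        · rw [htA a ha]; exact inv_mem ha
        · have h1 : t⁻¹ * a * t = a⁻¹ := by
            have h2 := htA a⁻¹ (inv_mem ha)
            rw [inv_inv] at h2
            calc t⁻¹ * a * t = t⁻¹ * (t * a⁻¹ * t⁻¹) * t := by rw [h2]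
              _ = a⁻¹ := by group
          rw [h1]; exact inv_mem ha
    | one => intro a ha; simpa using ha
    | mul x y _ _ hx hy =>
      intro a ha
      refine ⟨?_, ?_⟩
      · have h1 := (hx _ (hy a ha).1).1
        have h2 : x * y * a * (x * y)⁻¹ = x * (y * a * y⁻¹) * x⁻¹ := by group
        rwa [h2]
      · have h1 := (hy _ (hx a ha).2).2
        have h2 : (x * y)⁻¹ * a * (x * y) = y⁻¹ * (x⁻¹ * a * x) * y := by group
        rwa [h2]
    | inv x _ hx =>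
      intro a ha
      refine ⟨?_, ?_⟩
      · have h1 := (hx a ha).2
        rwa [inv_inv]
      · have h1 := (hx a ha).1
        rwa [inv_inv]
  have hAn : A.Normal := ⟨fun a ha y => (hAt y (by rw [htop']; exact Subgroup.mem_top y) a ha).1⟩
  have hzt : t * z = z * t := by rw [← htt, mul_assoc]
  have hzc : ∀ y, y * z = z * y := by
    intro y
    have hy : y ∈ Subgroup.closure ((A : Set Y) ∪ {t}) := by rw [htop']; exact Subgroup.mem_top y
    induction hy using Subgroup.closure_induction with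
    | mem x hx =>
      rcases hx with hx | hx
      · exact hA x hx z hzA
      · rw [Set.mem_singleton_iff.1 hx]; exact hzt
    | one => rw [one_mul, mul_one]
    | mul x y _ _ hx hy => rw [mul_assoc, hy, ← mul_assoc, hx, mul_assoc]
    | inv x _ hx => rw [inv_mul_eq_iff_eq_mul, ← mul_assoc, hx, mul_inv_cancel_right]
  refine fsz_cls (A := A) (E := ⊥) (t := t) hAn hA (fun e he => by rw [Subgroup.mem_bot.1 he, mul_one]) hzA hzc hz2
    (fun e he => by rw [Subgroup.mem_bot.1 he, mul_one, one_mul]) htt htA ?_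
  rw [eq_top_iff, ← htop']
  refine Subgroup.closure_mono ?_
  rintro x (hx | hx)
  · exact Or.inl (Or.inl hx)
  · exact Or.inr hx

/-- A commutative subgroup of index two, the elements outside have square `z`. -/
theorem fsz_index_two (hA : ∀ a ∈ A, ∀ b ∈ A, a * b = b * a) (hi : A.index = 2) {z : Y} (hz2 : z * z = 1)
    (hz : ∀ y ∉ A, y * y = z) : FSZ z := by
  have hAn : A.Normal := Subgroup.normal_of_index_eq_two hi
  obtain ⟨t, ht⟩ : ∃ t, t ∉ A := by
    by_contra h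
    push Not at h
    have h1 : A = ⊤ := by rw [eq_top_iff]; exact fun x _ => h x
    rw [h1, Subgroup.index_top] at hi
    omega
  have htt := hz t ht
  have hzA : z ∈ A := by
    rw [← htt]
    exact (Subgroup.mul_mem_iff_of_index_two hi).2 Iff.rfl
  refine fsz_inv hA hzA hz2 htt (fun a ha => ?_) ?_
  · have h1 : a * t ∉ A := fun h => ht ((Subgroup.mul_mem_cancel_left A ha).1 h)
    have h2 := hz _ h1
    have h3 : a * (t * a * t⁻¹) * (t * t) = z := by
      rw [← h2]; group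
    rw [htt, mul_eq_right] at h3
    exact (inv_eq_of_mul_eq_one_right h3).symm
  · rw [eq_top_iff]
    intro y _
    by_cases hy : y ∈ A
    · exact Subgroup.mem_sup_left hy
    · have h1 : y * t⁻¹ ∈ A := by
        rw [Subgroup.mul_mem_iff_of_index_two hi, inv_mem_iff]
        exact ⟨fun h => absurd h hy, fun h => absurd h ht⟩
      have h2 : y = (y * t⁻¹) * t := by group
      rw [h2]
      exact mul_mem (Subgroup.mem_sup_left h1) (Subgroup.mem_sup_right (Subgroup.subset_closure rfl))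

end Main

/-! ### Ambient forms -/

section Amb

variable {Γ : Type u} [Group Γ] {A E Y : Subgroup Γ} [Finite Y]

/-- **The class lemma with `z`**, for a subgroup `Y = closure (A ∪ E ∪ {t})` of an ambient group. -/
theorem fszs_cls (hAY : A ≤ Y) (hEY : E ≤ Y) (hAn : ∀ y ∈ Y, ∀ a ∈ A, y * a * y⁻¹ ∈ A)
    (hA : ∀ a ∈ A, ∀ b ∈ A, a * b = b * a) (hE2 : ∀ e ∈ E, e * e = 1) {t z : Γ} (htY : t ∈ Y)
    (hzA : z ∈ A) (hzc : ∀ y ∈ Y, y * z = z * y) (hz2 : z * z = 1) (htE : ∀ e ∈ E, t * e = e * t) (htt : t * t = z)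
    (htA : ∀ a ∈ A, t * a * t⁻¹ = a⁻¹) (hgen : Y ≤ Subgroup.closure ((A : Set Γ) ∪ E ∪ {t})) : FSZs Y z := by
  refine ⟨hAY hzA, ?_⟩
  refine fsz_cls (Y := Y) (A := A.subgroupOf Y) (E := E.subgroupOf Y) (t := ⟨t, htY⟩) (z := ⟨z, hAY hzA⟩)
    ⟨fun a ha y => hAn y y.2 a ha⟩ (fun a ha b hb => Subtype.ext (hA a ha b hb))
    (fun e he => Subtype.ext (hE2 e he)) hzA (fun y => Subtype.ext (hzc y y.2)) (Subtype.ext hz2)
    (fun e he => Subtype.ext (htE e he)) (Subtype.ext htt) (fun a ha => Subtype.ext (htA a ha)) ?_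
  rw [eq_top_iff]
  intro y _
  have h1 : ∀ x ∈ Subgroup.closure ((A : Set Γ) ∪ E ∪ {t}), ∃ hx : x ∈ Y, (⟨x, hx⟩ : Y) ∈
      Subgroup.closure (((A.subgroupOf Y : Subgroup Y) : Set Y) ∪ (E.subgroupOf Y : Subgroup Y) ∪ {(⟨t, htY⟩ : Y)}) := by
    intro x hx
    induction hx using Subgroup.closure_induction with
    | mem x hx =>
      rcases hx with (hx | hx) | hx
      · exact ⟨hAY hx, Subgroup.subset_closure (Or.inl (Or.inl hx))⟩
      · exact ⟨hEY hx, Subgroup.subset_closure (Or.inl (Or.inr hx))⟩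
      · have hx' := Set.mem_singleton_iff.1 hx
        subst hx'
        exact ⟨htY, Subgroup.subset_closure (Or.inr rfl)⟩
    | one => exact ⟨one_mem _, one_mem _⟩
    | mul x y _ _ hx hy =>
      obtain ⟨h1, h2⟩ := hx
      obtain ⟨h3, h4⟩ := hy
      exact ⟨mul_mem h1 h3, mul_mem h2 h4⟩
    | inv x _ hx =>
      obtain ⟨h1, h2⟩ := hx
      exact ⟨inv_mem h1, inv_mem h2⟩
  obtain ⟨hx, h2⟩ := h1 y (hgen y.2)
  exact h2

/-- **The class lemma** for a subgroup `Y = A E` of an ambient group. -/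
theorem fsGood_cls_amb (hAY : A ≤ Y) (hEY : E ≤ Y) (hAn : ∀ y ∈ Y, ∀ a ∈ A, y * a * y⁻¹ ∈ A)
    (hA : ∀ a ∈ A, ∀ b ∈ A, a * b = b * a) (hE2 : ∀ e ∈ E, e * e = 1) (hAE : ∀ y ∈ Y, ∃ a ∈ A, ∃ e ∈ E, y = a * e)
    {t : Γ} (htE : t ∈ E) (htA : ∀ a ∈ A, t * a * t⁻¹ = a⁻¹) : FSGood False Y := by
  refine fsGood_cls (Y := Y) (A := A.subgroupOf Y) (E := E.subgroupOf Y) (t := ⟨t, hEY htE⟩)
    ⟨fun a ha y => hAn y y.2 a ha⟩ (fun a ha b hb => Subtype.ext (hA a ha b hb))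
    (fun e he => Subtype.ext (hE2 e he)) ?_ htE (fun a ha => Subtype.ext (htA a ha))
  rw [eq_top_iff]
  intro y _
  obtain ⟨a, ha, e, he, h⟩ := hAE y y.2
  have h1 : y = (⟨a, hAY ha⟩ : Y) * ⟨e, hEY he⟩ := Subtype.ext h
  rw [h1]
  exact mul_mem (Subgroup.mem_sup_left (Subgroup.mem_subgroupOf.2 ha))
    (Subgroup.mem_sup_right (Subgroup.mem_subgroupOf.2 he))

/-- `Y = A ∪ A t`, `t² = z`, `t` inverts the commutative group `A` -/
theorem fszs_inv (hAY : A ≤ Y) (hA : ∀ a ∈ A, ∀ b ∈ A, a * b = b * a) {t z : Γ} (htY : t ∈ Y)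
    (hzA : z ∈ A) (hz2 : z * z = 1) (htt : t * t = z) (htA : ∀ a ∈ A, t * a * t⁻¹ = a⁻¹)
    (hdec : ∀ y ∈ Y, y ∈ A ∨ y * t ∈ A) : FSZs Y z := by
  refine ⟨hAY hzA, ?_⟩
  refine fsz_inv (Y := Y) (A := A.subgroupOf Y) (t := ⟨t, htY⟩) (z := ⟨z, hAY hzA⟩)
    (fun a ha b hb => Subtype.ext (hA a ha b hb)) hzA (Subtype.ext hz2) (Subtype.ext htt)
    (fun a ha => Subtype.ext (htA a ha)) ?_
  rw [eq_top_iff]
  intro y _
  rcases hdec y y.2 with h | h
  · exact Subgroup.mem_sup_left (Subgroup.mem_subgroupOf.2 h)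
  · have h1 : y = (y * ⟨t, htY⟩) * (⟨t, htY⟩ : Y)⁻¹ := by group
    rw [h1]
    exact mul_mem (Subgroup.mem_sup_left (Subgroup.mem_subgroupOf.2 h))
      (Subgroup.mem_sup_right (inv_mem (Subgroup.subset_closure rfl)))

end Amb

end Cfsg.Agent.H619.FR
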